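import Mathlib
import Cfsg.Agent.Herm.SU3
import Cfsg.Agent.Herm.Iso
import Cfsg.Agent.Classical.AutU4
import Cfsg.Agent.Classical.Congr

/-! The centralizer of an involution of `PGU₃(q)`, `q` even. -/

set_option autoImplicit false

namespace Cfsg.Agent.U3C

open Module Cfsg.Agent.Herm

variable {F : Type*} [Field F] {σ : F →+* F} {q : ℕ}

/-- The abstract properties of the involution centralizer. -/
def Good (h : Inv σ) (H : Type*) [Group H] : Prop :=
  ∃ Q : Subgroup H, Q.Normal ∧ Odd Q.index ∧ Nonempty (Q ≃* Heis h) ∧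
    (∀ g, (∀ x ∈ Q, g * x = x * g) → g ^ 4 = 1) ∧ ∀ x ∈ Q, x * x = 1 → ∀ g, g * x = x * g

theorem Good.congr {h : Inv σ} {H K : Type*} [Group H] [Group K] (e : H ≃* K) (hK : Good h K) :
    Good h H := by
  obtain ⟨Q, h1, h2, ⟨f⟩, h3, h4⟩ := hK
  refine ⟨Q.comap e.toMonoidHom, h1.comap _, ?_, ⟨?_⟩, fun g hg => e.injective ?_,
    fun x hx hxx g => e.injective ?_⟩
  · rwa [Subgroup.index_comap_of_surjective _ e.surjective]
  · exact ((e.subgroupMap (Q.comap e.toMonoidHom)).trans (MulEquiv.subgroupCongr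
      (Subgroup.map_comap_eq_self_of_surjective e.surjective Q))).trans f
  · rw [map_pow, map_one]
    refine h3 _ fun x hx => ?_
    obtain ⟨y, rfl⟩ := e.surjective x
    rw [← map_mul, ← map_mul, hg y hx]
  · rw [map_mul, map_mul]
    exact h4 _ hx (by rw [← map_mul, hxx, map_one]) _

variable {V : Type*} [AddCommGroup V] [Module F V] [FiniteDimensional F V]
  {B : V →ₛₗ[σ] V →ₗ[F] F}

/-- A frame of a three-dimensional unitary space. -/
structure Fr (B : V →ₛₗ[σ] V →ₗ[F] F) (u w f : V) : Prop where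
  hf : HF B
  dim : finrank F V = 3
  uu : B u u = 0
  uw : B u w = 0
  ww : B w w = 1
  uf : B u f = 1
  ff : B f f = 0
  fw : B f w = 0

namespace Fr

variable {u w f : V} (h : Fr B u w f)
include h

theorem wu : B w u = 0 := h.hf.zero_symm h.uw
theorem fu : B f u = 1 := h.hf.one_symm h.uf
theorem wf : B w f = 0 := h.hf.zero_symm h.fw

theorem ne : u ≠ 0 := ne_zero_of_b (B := B) (y := f) (by rw [h.uf]; exact one_ne_zero)

theorem decomp (x : V) : x = B f x • u + B w x • w + B u x • f := by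
  have hli : LinearIndependent F ![u, w, f] := by
    rw [Fintype.linearIndependent_iff]
    intro c hc
    rw [Fin.sum_univ_three] at hc
    have h1 := congrArg (B f) hc
    have h2 := congrArg (B w) hc
    have h3 := congrArg (B u) hc
    simp [h.uu, h.uw, h.ww, h.uf, h.ff, h.fw, h.wu, h.fu, h.wf] at h1 h2 h3
    intro i
    fin_cases i <;> assumption
  have hsp := hli.span_eq_top_of_card_eq_finrank' (by rw [h.dim]; simp)
  have hx : x ∈ Submodule.span F (Set.range ![u, w, f]) := hsp ▸ Submodule.mem_top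
  obtain ⟨c, rfl⟩ := (Submodule.mem_span_range_iff_exists_fun F).1 hx
  rw [Fin.sum_univ_three]
  simp [h.uu, h.uw, h.ww, h.uf, h.ff, h.fw, h.wu, h.fu, h.wf]

theorem ext {g k : UG B} (h1 : g.1 u = k.1 u) (h2 : g.1 w = k.1 w) (h3 : g.1 f = k.1 f) : g = k :=
  UG.ext fun x => by
    rw [h.decomp x]
    simp only [map_add, map_smul, h1, h2, h3]

/-- The Heisenberg group inside `UG`. -/
noncomputable def hs : Heis h.hf.toInv →* UG B :=
  (SUG B).subtype.comp (h.hf.heisHom h.uu h.uw h.ww)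

theorem hs_eq (x : Heis h.hf.toInv) : h.hs x = h.hf.eich u (x.a • w) x.l := rfl

theorem hs_inj : Function.Injective h.hs :=
  (injective_iff_map_eq_one _).2 fun x hx => h.hf.heisHom_eq_one h.uu h.uw h.ww h.uf h.ff h.fw x
    ⟨1, by rw [show (h.hf.heisHom h.uu h.uw h.ww x).1 = 1 from hx]; simp⟩

theorem eich_mem {v : V} {l : F} (hv : B u v = 0) (hl : l + σ l = B v v) :
    h.hf.eich u v l ∈ h.hs.range := by
  have h1 := h.decomp v
  rw [hv, zero_smul, add_zero, add_comm] at h1
  generalize B f v = b at h1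
  generalize B w v = a at h1
  subst h1
  have h2 : l + σ l = B (a • w) (a • w) := by
    rw [hl]; simp [h.uu, h.uw, h.wu, h.ww, mul_comm]
  rw [h.hf.eich_add_smul h.uu (by simp [h.uw]) h2]
  refine ⟨⟨a, l + b - σ b, ?_⟩, rfl⟩
  simp only [map_sub, map_add, h.hf.invol]
  simp only [b_smul_left, map_smul, h.ww, smul_eq_mul, mul_one] at h2
  linear_combination h2

theorem perp {g : UG B} (hg : g.1 u = u) {x : V} (hx : B u x = 0) : B u (g.1 x) = 0 := by
  rw [← hg, UG.map_b, hx]

theorem mem_S {g : UG B} : g ∈ fixSub B (Submodule.span F {u}) ↔ g.1 u = u := by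
  rw [mem_fixSub]
  refine ⟨fun H => H u (Submodule.mem_span_singleton_self u), fun H x hx => ?_⟩
  obtain ⟨a, rfl⟩ := Submodule.mem_span_singleton.1 hx
  rw [map_smul, H]

theorem good [Finite F] [CharP F 2] (hF : Nat.card F = q ^ 2) (hq : Even q) :
    Good h.hf.toInv (fixSub B (Submodule.span F {u})) := by
  have : Finite V := Module.finite_of_finite F
  have hle : h.hs.range ≤ fixSub B (Submodule.span F {u}) := by
    rintro _ ⟨x, rfl⟩
    exact h.mem_S.2 (h.hf.eich_apply_left _ _ _)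
  have two : ∀ x : V, x + x = 0 := fun x => by
    rw [← two_smul F x, CharTwo.two_eq_zero, zero_smul]
  refine ⟨h.hs.range.subgroupOf _, ⟨?_⟩, ?_,
    ⟨(Subgroup.subgroupOfEquivOfLe hle).trans (MonoidHom.ofInjective h.hs_inj).symm⟩, ?_, ?_⟩
  · rintro ⟨_, hx⟩ ⟨x, rfl⟩ g
    have hg := h.mem_S.1 g.2
    change g.1 * h.hs x * g.1⁻¹ ∈ h.hs.range
    rw [hs_eq, h.hf.eich_conj, hg]
    refine h.eich_mem (h.perp hg (by simp [h.uw])) ?_
    rw [UG.map_b]
    simp [h.ww, x.prop, mul_comm]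
  · have h1 := h.hf.card_fixSub hF (W := Submodule.span F {u}) (k := 1) (by
      intro x hx y hy
      obtain ⟨a, rfl⟩ := Submodule.mem_span_singleton.1 hx
      obtain ⟨b, rfl⟩ := Submodule.mem_span_singleton.1 hy
      simp [h.uu]) (finrank_span_singleton h.ne)
    have h2 := (h.hs.range.subgroupOf (fixSub B (Submodule.span F {u}))).card_mul_index
    rw [h1, Nat.card_congr (Subgroup.subgroupOfEquivOfLe hle).toEquiv,
      ← Nat.card_congr (MonoidHom.ofInjective h.hs_inj).toEquiv, Heis.card hF, h.dim] at h2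
    have h3 : q ≠ 0 := by have := two_le_of_card hF; omega
    have h4 := Nat.eq_of_mul_eq_mul_left (Nat.pos_of_ne_zero (pow_ne_zero 3 h3)) h2
    rw [h4]
    simpa [ordU] using hq.add_one
  · intro g hc
    have hg := h.mem_S.1 g.2
    obtain ⟨l, hl⟩ := h.hf.exists_trace (c := 1) (map_one σ)
    have h1 := h.eich_mem h.uw (hl.trans h.ww.symm)
    have h2 : g.1 * h.hf.eich u w l * g.1⁻¹ = h.hf.eich u w l :=
      mul_inv_eq_iff_eq_mul.2 (congrArg Subtype.val (hc ⟨_, hle h1⟩ h1))
    rw [h.hf.eich_conj, hg] at h2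
    have h3 : (h.hf.eich u (g.1.1 w) l).1 f = (h.hf.eich u w l).1 f := by rw [h2]
    rw [h.hf.eich_apply h.uu (h.perp hg h.uw) (by rw [UG.map_b, hl, h.ww]),
      h.hf.eich_apply h.uu h.uw (hl.trans h.ww.symm), h.uf, h.wf, one_smul, one_smul] at h3
    obtain ⟨c, hw⟩ : ∃ c : F, g.1.1 w = w + c • u :=
      ⟨B (g.1.1 w) f, by linear_combination (norm := module) -h3⟩
    have h4 := h.decomp (g.1.1 f)
    rw [show B u (g.1.1 f) = 1 by rw [← h.uf, ← UG.map_b g.1 u f, hg], one_smul] at h4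
    generalize B f (g.1.1 f) = b at h4
    generalize B w (g.1.1 f) = a at h4
    have e1 : (g.1 * g.1).1 u = u := by simp [hg]
    have e2 : (g.1 * g.1).1 w = w := by
      simp only [UG.mul_apply, hw, map_add, map_smul, hg]
      rw [add_assoc, two, add_zero]
    have e3 : (g.1 * g.1).1 f = f + (a * c) • u := by
      rw [UG.mul_apply, h4, map_add, map_add, map_smul, map_smul, hg, hw, h4]
      linear_combination (norm := module) two (b • u) + two (a • w)
    apply Subtype.ext
    rw [Subgroup.coe_pow, show g.1 ^ 4 = (g.1 * g.1) * (g.1 * g.1) by rw [← sq, ← sq, ← pow_mul]]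
    refine h.ext ?_ ?_ ?_
    · rw [UG.mul_apply, e1, e1]; rfl
    · rw [UG.mul_apply, e2, e2]; rfl
    · rw [UG.mul_apply, e3, map_add, map_smul, e1, e3, add_assoc, two, add_zero]; rfl
  · rintro ⟨_, hx⟩ ⟨x, rfl⟩ hxx g
    have hg := h.mem_S.1 g.2
    have h1 : x * x = 1 := h.hs_inj (by rw [map_mul, map_one]; exact congrArg Subtype.val hxx)
    rw [Heis.mul_self_eq_one_iff] at h1
    apply Subtype.ext
    change g.1 * h.hs x = h.hs x * g.1
    rw [← mul_inv_eq_iff_eq_mul, hs_eq, h.hf.eich_conj, hg, h1, zero_smul, map_zero]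

theorem one_add [CharP F 2] : (1 : F) + σ 1 = 0 := by
  rw [map_one, CharTwo.add_self_eq_zero]

theorem tv_sq [CharP F 2] {a : F} (ha : a + σ a = 0) : h.hf.qr u a * h.hf.qr u a = 1 := by
  rw [h.hf.tv_mul h.uu ha ha, CharTwo.add_self_eq_zero, h.hf.qr_zero]

theorem tv_inj {a b : F} (ha : a + σ a = 0) (hb : b + σ b = 0) (e : h.hf.qr u a = h.hf.qr u b) :
    a = b := by
  have h1 := congrArg (fun k : UG B => B f (k.1 f)) e
  simpa [h.hf.tv_apply h.uu ha, h.hf.tv_apply h.uu hb, h.uf, h.fu, h.ff] using h1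

omit h in
theorem scal_eq_one [CharP F 2] [Nontrivial V] {a : normOne σ} (e : scal B a * scal B a = 1) :
    scal B a = 1 := by
  rw [← map_mul, ← map_one (scal B)] at e
  have h1 : (a.1 : F) * a.1 = 1 := congrArg (fun x : normOne σ => (x.1 : F)) (scal_injective e)
  have h2 : (a.1 : F) = 1 := frobenius_inj F 2 (by simpa [frobenius_def, sq] using h1)
  rw [show a = 1 from Subtype.ext (Units.ext h2), map_one]

theorem exists_good [Finite F] [CharP F 2] (hF : Nat.card F = q ^ 2) (hq : Even q) :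
    ∃ y : UG B ⧸ Subgroup.center (UG B), orderOf y = 2 ∧
      Good h.hf.toInv (Subgroup.centralizer ({y} : Set (UG B ⧸ Subgroup.center (UG B)))) := by
  have : Nontrivial V := ⟨⟨u, 0, h.ne⟩⟩
  have hZ := h.hf.center_UG (by rw [h.dim]; norm_num)
  let π := QuotientGroup.mk' (Subgroup.center (UG B))
  have hfix : ∀ g : UG B, g.1 u = u → π g = 1 → g = 1 := by
    intro g hg h1
    obtain ⟨a, rfl⟩ : g ∈ (scal B).range := hZ ▸ (QuotientGroup.eq_one_iff g).1 h1
    rw [scal_apply] at hg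
    have h2 : (a.1 : F) = 1 := smul_left_injective F h.ne (hg.trans (one_smul F u).symm)
    rw [show a = 1 from Subtype.ext (Units.ext h2), map_one]
  let φ := π.comp (fixSub B (Submodule.span F {u})).subtype
  have hφ : Function.Injective φ := (injective_iff_map_eq_one _).2 fun g hg =>
    Subtype.ext (hfix _ (h.mem_S.1 g.2) hg)
  have hr : φ.range = Subgroup.centralizer {π (h.hf.qr u 1)} := by
    ext y
    rw [Subgroup.mem_centralizer_singleton_iff]
    constructor
    · rintro ⟨g, rfl⟩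
      change π g.1 * _ = _ * π g.1
      rw [← map_mul, ← map_mul, ← mul_inv_eq_iff_eq_mul.1
        ((h.hf.qr_conj g.1 u 1).trans (by rw [h.mem_S.1 g.2]))]
    · obtain ⟨g, rfl⟩ : ∃ g, π g = y := QuotientGroup.mk'_surjective _ y
      intro hc
      obtain ⟨a, ha⟩ : g * h.hf.qr u 1 * g⁻¹ * (h.hf.qr u 1)⁻¹ ∈ (scal B).range := by
        rw [← hZ, ← QuotientGroup.eq_one_iff]
        change π _ = 1
        rw [map_mul, map_mul, map_mul, hc, map_inv, map_inv]
        group
      have h1 : g * h.hf.qr u 1 * g⁻¹ = scal B a * h.hf.qr u 1 := by rw [ha]; group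
      have h2 : scal B a = 1 := scal_eq_one (by
        have h3 : g * h.hf.qr u 1 * g⁻¹ * (g * h.hf.qr u 1 * g⁻¹) = 1 := by
          rw [show g * h.hf.qr u 1 * g⁻¹ * (g * h.hf.qr u 1 * g⁻¹) =
            g * (h.hf.qr u 1 * h.hf.qr u 1) * g⁻¹ by group, h.tv_sq h.one_add]
          group
        rwa [h1, mul_assoc, ← mul_assoc (h.hf.qr u 1), scal_comm, mul_assoc, h.tv_sq h.one_add,
          mul_one] at h3)
      rw [h2, one_mul] at h1
      obtain ⟨b, hb⟩ := Submodule.mem_span_singleton.1 (h.hf.mem_span_of_comm h.ne h.uu one_ne_zero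
        h.one_add (mul_inv_eq_iff_eq_mul.1 h1))
      have hb0 : b ≠ 0 := by
        rintro rfl
        exact h.ne ((UG.apply_eq_zero g).1 (by rw [← hb, zero_smul]))
      rw [h.hf.qr_conj, ← hb, h.hf.qr_smul _ _ _ hb0] at h1
      have h3 := h.tv_inj (by
        simp only [map_mul, h.hf.invol, map_one, mul_one]
        rw [mul_comm, CharTwo.add_self_eq_zero]) h.one_add h1
      let c : normOne σ := ⟨Units.mk0 b hb0, mem_normOne.2 (by simpa [mul_comm] using h3)⟩
      refine ⟨⟨(scal B c)⁻¹ * g, h.mem_S.2 ?_⟩, ?_⟩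
      · rw [UG.mul_apply, ← hb, show b • u = (scal B c).1 u from rfl, UG.inv_apply_self]
      · change π (_ * _) = π g
        rw [map_mul, map_inv, show π (scal B c) = 1 from
          (QuotientGroup.eq_one_iff _).2 (hZ ▸ ⟨c, rfl⟩), inv_one, one_mul]
  refine ⟨π (h.hf.qr u 1), orderOf_eq_prime ?_ fun h1 => ?_, (h.good hF hq).congr
    ((MonoidHom.ofInjective hφ).trans (MulEquiv.subgroupCongr hr)).symm⟩
  · rw [sq, ← map_mul, h.tv_sq h.one_add, map_one]
  · have h2 := hfix _ (h.hf.qr_apply_of_orth 1 h.uu) h1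
    exact one_ne_zero (h.tv_inj h.one_add (by simp) (h2.trans (h.hf.qr_zero u).symm))

end Fr

section Psu

open Cfsg.Agent.Classical Cfsg.Agent.Classical.AutU Cfsg.Agent.Classical.Lang Matrix

variable [Finite F] (hF : Nat.card F = q ^ 2)

theorem exists_fr : ∃ u w f, Fr (sB hF 3) u w f := by
  obtain ⟨u, w, f, h1, h2, h3, h4, h5, h6⟩ := (hf_sB hF 3).exists_frame_three (by simp)
  exact ⟨u, w, f, hf_sB hF 3, by simp, h1, h2, h3, h4, h5, h6⟩

theorem cent_equiv {G H : Type*} [Group G] [Group H] (e : G ≃* H) (y : G) :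
    Nonempty (Subgroup.centralizer ({y} : Set G) ≃* Subgroup.centralizer ({e y} : Set H)) := by
  refine ⟨(e.subgroupMap _).trans (MulEquiv.subgroupCongr ?_)⟩
  ext x
  obtain ⟨x, rfl⟩ := e.surjective x
  refine (Subgroup.mem_map_iff_mem (f := (e : G →* H)) e.injective).trans ?_
  rw [Subgroup.mem_centralizer_singleton_iff, Subgroup.mem_centralizer_singleton_iff, ← map_mul,
    ← map_mul, e.apply_eq_iff_eq]

theorem pgu_good [CharP F 2] (hq : Even q) :
    ∃ y : GU 3 F q ⧸ Subgroup.center (GU 3 F q), orderOf y = 2 ∧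
      Good (inv_frob hF) (Subgroup.centralizer ({y} : Set (GU 3 F q ⧸ Subgroup.center (GU 3 F q)))) := by
  obtain ⟨u, w, f, h⟩ := exists_fr hF
  obtain ⟨y, h1, h2⟩ := h.exists_good hF hq
  let e := (Congr.centerQuotCongr (toUG hF 3)).symm
  obtain ⟨e'⟩ := cent_equiv e y
  exact ⟨e y, (e.orderOf_eq y).trans h1, h2.congr e'.symm⟩

include hF in
theorem ker_dU (hq : q ≠ 2) :
    (dU : GU 3 F q →* MulAut (PSU 3 F q)).ker = Subgroup.center (GU 3 F q) := by
  ext g
  rw [MonoidHom.mem_ker]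
  refine ⟨fun h => Subgroup.mem_center_iff.2 fun k => Subtype.ext (Subgroup.mem_center_iff.1
    ((dU_eq_one_iff hF le_rfl (by simpa using hq)).1 h) k.1), fun h => ?_⟩
  ext x
  induction x using QuotientGroup.induction_on with | H s =>
  refine congrArg QuotientGroup.mk (suToGU_injective ?_)
  refine (show suToGU 3 F q (cSU g s) = g * suToGU 3 F q s * g⁻¹ from
    Subtype.ext (Units.ext rfl)).trans ?_
  rw [← Subgroup.mem_center_iff.1 h, mul_inv_cancel_right]

include hF in
theorem eq_of_mk_eq [CharP F 2] {s t : SU 3 F q} (hs : s * s = 1) (ht : t * t = 1)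
    (e : (s : PSU 3 F q) = t) : s = t := by
  have h1 := QuotientGroup.eq.1 e
  have h2 : toSUG hF 3 (s⁻¹ * t) ∈ Subgroup.center _ := Subgroup.mem_center_iff.2 fun k => by
    obtain ⟨k, rfl⟩ := (toSUG hF 3).surjective k
    rw [← map_mul, ← map_mul, Subgroup.mem_center_iff.1 h1]
  obtain ⟨a, ha⟩ := ((hf_sB hF 3).mem_center_SUG (by simp) _).1 h2
  have h3 : s⁻¹ * t * (s⁻¹ * t) = 1 := by
    rw [← mul_assoc, ← Subgroup.mem_center_iff.1 h1, ← mul_assoc, ← _root_.mul_inv_rev, hs, inv_one,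
      one_mul, ht]
  have h4 : scal (sB hF 3) a = 1 := Fr.scal_eq_one (by
    rw [← ha, ← Subgroup.coe_mul, ← map_mul, h3, map_one, Subgroup.coe_one])
  rw [h4] at ha
  exact inv_mul_eq_one.1 ((toSUG hF 3).map_eq_one_iff.1 (Subtype.ext ha))

theorem sq_eq_one_of_fix (h : Inv σ) (s : F ≃+* F) (hs : ∀ a, σ a = a → s a = a) : s * s = 1 := by
  ext x
  have h0 := comm_inv h s.toRingHom x
  have h1 := hs (x + σ x) (by rw [map_add, h.invol, add_comm])
  have h2 := hs (x * σ x) (by rw [map_mul, h.invol, mul_comm])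
  rw [map_add] at h1
  rw [map_mul] at h2
  have h3 : (s x - x) * (s x - σ x) = 0 := by linear_combination s x * h1 - h2
  change s (s x) = x
  rcases mul_eq_zero.1 h3 with h4 | h4 <;> rw [sub_eq_zero] at h4
  · rw [h4, h4]
  · rw [h4]
    exact h0.trans (by rw [show s.toRingHom x = σ x from h4, h.invol])

include hF in
theorem psu_inv [CharP F 2] (hq : q ≠ 2) : ∃ t : PSU 3 F q, orderOf t = 2 ∧
    ∀ β : MulAut (PSU 3 F q), (∀ s, s * s = 1 → s * t = t * s → β s = s) →
      β * β ∈ (dU : GU 3 F q →* MulAut (PSU 3 F q)).range := by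
  obtain ⟨u, w, f, h⟩ := exists_fr hF
  let T : F → SU 3 F q := fun a => (toSUG hF 3).symm ⟨h.hf.qr u a, h.hf.tv_mem_SUG h.uu a⟩
  have hT : ∀ a, a + frob hF a = 0 → ∀ x, (T a).1.1 *ᵥ x = x + (a * sB hF 3 u x) • u :=
    fun a ha x => (toSUG_symm_mulVec hF _ x).trans (h.hf.tv_apply h.uu ha x)
  have hsq : ∀ a, a + frob hF a = 0 → T a * T a = 1 := fun a ha => by
    rw [← map_mul, MulEquiv.map_eq_one_iff]
    exact Subtype.ext (h.tv_sq ha)
  refine ⟨T 1, orderOf_eq_prime ?_ fun h1 => ?_, fun β hβ => ?_⟩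
  · rw [sq, ← QuotientGroup.mk_mul, hsq 1 h.one_add, QuotientGroup.mk_one]
  · have h2 := (toSUG hF 3).symm.map_eq_one_iff.1
      (eq_of_mk_eq hF (hsq 1 h.one_add) (mul_one 1) h1)
    exact one_ne_zero (h.tv_inj h.one_add (by simp)
      ((congrArg Subtype.val h2).trans (h.hf.qr_zero u).symm))
  · obtain ⟨k, s, rfl⟩ := exists_decomp hF le_rfl (by simpa using hq) β
    have key : ∀ a, a + frob hF a = 0 → ∀ x, s (a * sB hF 3 u x) • semi s.toRingHom k.1.1 u =
        (a * sB hF 3 u (semi s.toRingHom k.1.1 x)) • u := by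
      intro a ha x
      have h1 : cSU k (fSU s (T a)) = T a := eq_of_mk_eq hF
        (by rw [← map_mul, ← map_mul, hsq a ha, map_one, map_one]) (hsq a ha)
        (hβ (T a) (by rw [← QuotientGroup.mk_mul, hsq a ha, QuotientGroup.mk_one]) (by
          rw [← QuotientGroup.mk_mul, ← QuotientGroup.mk_mul, ← map_mul, ← map_mul]
          congr 2
          apply Subtype.ext
          simp only [Subgroup.coe_mul]
          rw [h.hf.tv_mul h.uu ha h.one_add, h.hf.tv_mul h.uu h.one_add ha, add_comm]))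
      have h2 := semi_act k s (T a) x
      rw [h1, hT a ha, hT a ha, map_add, map_smulₛₗ, add_right_inj] at h2
      exact h2.symm
    have h1 : s * s = 1 := sq_eq_one_of_fix (inv_frob hF) s fun a ha => by
      obtain ⟨x, hx⟩ := semi_surjective k.1 s f
      have h2 := key a (by rw [ha, CharTwo.add_self_eq_zero]) x
      have h3 := key 1 h.one_add x
      rw [hx, h.uf] at h2 h3
      rw [one_mul, one_mul, one_smul] at h3
      rw [map_mul, mul_smul, h3, mul_one] at h2
      exact smul_left_injective F h.ne h2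
    refine ⟨k * fGU s k, ?_⟩
    rw [map_mul, mul_assoc, ← mul_assoc (fU 3 q s), fU_mul_dU, mul_assoc, ← map_mul (fU 3 q), h1,
      map_one, mul_one]

end Psu

end Cfsg.Agent.U3C
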